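import Mathlib

/-!
# Lengths of torsion modules over a discrete valuation ring (helper23)

For a module `M` of finite length and an endomorphism `φ`, `length (ker φ) = length (coker φ)`;
f.g. modules over a DVR killed by a power of the uniformizer have finite length; and
`dim_k (k ⊗ M) = length (M / ϖ M)`.
-/

open IsLocalRing TensorProduct

namespace Groth.Agent.Lib.Helper23.DVRLen

theorem length_ker_eq_length_coker {R : Type*} [CommRing R] {M : Type*} [AddCommGroup M]
    [Module R M] (hM : IsFiniteLength R M) (φ : M →ₗ[R] M) :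
    Module.length R (LinearMap.ker φ) = Module.length R (M ⧸ LinearMap.range φ) := by
  have h1 := Module.length_eq_add_of_exact (LinearMap.ker φ).subtype φ.rangeRestrict
    (Submodule.subtype_injective _) φ.surjective_rangeRestrict (by
      rw [LinearMap.exact_iff, LinearMap.ker_rangeRestrict, Submodule.range_subtype])
  have h2 := Module.length_eq_add_of_exact (LinearMap.range φ).subtype (LinearMap.range φ).mkQ
    (Submodule.subtype_injective _) (Submodule.mkQ_surjective _)
    (LinearMap.exact_subtype_mkQ _)
  have hfin : Module.length R (LinearMap.range φ) ≠ ⊤ := by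
    rw [Module.length_ne_top_iff]
    exact hM.of_injective (Submodule.subtype_injective _)
  rw [h1, add_comm] at h2
  exact WithTop.add_left_cancel hfin h2

theorem isFiniteLength_of_torsion {R : Type*} [CommRing R] [IsDomain R] [IsDiscreteValuationRing R]
    {ϖ : R} (hϖ : Irreducible ϖ) (n : ℕ)
    {M : Type*} [AddCommGroup M] [Module R M] [Module.Finite R M] (hM : ∀ m : M, ϖ ^ n • m = 0) :
    IsFiniteLength R M := by
  rw [isFiniteLength_iff_isNoetherian_isArtinian]
  refine ⟨inferInstance, ?_⟩
  have hx : ϖ ^ n ∈ nonZeroDivisors R :=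
    mem_nonZeroDivisors_of_ne_zero (pow_ne_zero _ hϖ.ne_zero)
  have hA : IsFiniteLength R (R ⧸ Ideal.span {ϖ ^ n}) := isFiniteLength_quotient_span_singleton R hx
  rw [isFiniteLength_iff_isNoetherian_isArtinian] at hA
  have : IsArtinianRing (R ⧸ Ideal.span {ϖ ^ n}) := isArtinian_of_tower R hA.2
  have hT : Module.IsTorsionBySet R M (Ideal.span {ϖ ^ n} : Set R) :=
    (Module.isTorsionBySet_span_singleton_iff (ϖ ^ n)).2 (fun m => hM m)
  let _ := hT.module
  have : Module.Finite (R ⧸ Ideal.span {ϖ ^ n}) M :=
    Module.Finite.of_restrictScalars_finite R _ M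
  have : IsArtinian (R ⧸ Ideal.span {ϖ ^ n}) M := isArtinian_of_fg_of_artinian'
  exact isArtinian_of_surjective_algebraMap (S := R) (R := R ⧸ Ideal.span {ϖ ^ n})
    Ideal.Quotient.mk_surjective

theorem smul_top_eq_range {R : Type*} [CommRing R] {M : Type*} [AddCommGroup M] [Module R M] (r : R) :
    (Ideal.span {r} : Ideal R) • (⊤ : Submodule R M) = LinearMap.range (LinearMap.lsmul R M r) := by
  rw [Submodule.ideal_span_singleton_smul]
  ext x
  simp [Submodule.mem_smul_pointwise_iff_exists]

theorem finrank_residueField_tensor {R : Type*} [CommRing R] [IsDomain R] [IsDiscreteValuationRing R]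
    {ϖ : R} (hϖ : Irreducible ϖ)
    {M : Type*} [AddCommGroup M] [Module R M] [Module.Finite R M] :
    (Module.finrank (ResidueField R) (ResidueField R ⊗[R] M) : ENat) =
      Module.length R (M ⧸ LinearMap.range (LinearMap.lsmul R M ϖ)) := by
  rw [← Module.length_eq_finrank,
    ← Module.length_eq_of_surjective (S := R) (R := ResidueField R)
      (M := ResidueField R ⊗[R] M) IsLocalRing.residue_surjective]
  have e : ResidueField R ⊗[R] M ≃ₗ[R] M ⧸ (maximalIdeal R • (⊤ : Submodule R M)) :=
    TensorProduct.quotTensorEquivQuotSMul M (maximalIdeal R)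
  rw [e.length_eq, (IsDiscreteValuationRing.irreducible_iff_uniformizer ϖ).1 hϖ, smul_top_eq_range]

end Groth.Agent.Lib.Helper23.DVRLen
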