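import Groth.Prelude.Def_DeRham
import Mathlib.Tactic

/-! Helper lemmas for the ring-level de Rham predicates `DeRham.IsRule`, `DeRham.IsDiff`,
`DeRham.IsCxMap`: the elements `gen δ p b₀ b` generate `⋀[A]^p M` additively when `δ(A)` spans `M`. -/

namespace Groth.Agent.Lib.Helper23.DR

open exteriorPower DeRham

universe u v

variable {R : Type v} {A M : Type u} [CommRing R] [CommRing A] [Algebra R A]
  [AddCommGroup M] [Module A M] [Module R M]

/-- Additive induction principle over the generators `b₀ · δb₁ ∧ … ∧ δb_p`. -/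
theorem gen_induction (δ : Derivation R A M) (hδ : Submodule.span A (Set.range δ) = ⊤) (p : ℕ)
    (Q : ↥(⋀[A]^p M) → Prop) (h0 : Q 0) (hadd : ∀ x y, Q x → Q y → Q (x + y))
    (hgen : ∀ (b₀ : A) (b : Fin p → A), Q (gen δ p b₀ b)) : ∀ x, Q x := by
  intro x
  have hx : x ∈ Submodule.span A (ιMulti A p '' {a | Set.range a ⊆ Set.range δ}) := by
    rw [ιMulti_span_of_span A p M hδ]; trivial
  suffices H : ∀ c : A, Q (c • x) by simpa using H 1
  induction hx using Submodule.span_induction with
  | mem y hy =>
    obtain ⟨a, ha, rfl⟩ := hy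
    intro c
    have : ∀ i, ∃ bi, δ bi = a i := fun i => ha ⟨i, rfl⟩
    choose b hb using this
    have : a = fun i => δ (b i) := funext fun i => (hb i).symm
    subst this
    exact hgen c b
  | zero => intro c; rw [smul_zero]; exact h0
  | add y z _ _ hy hz => intro c; rw [smul_add]; exact hadd _ _ (hy c) (hz c)
  | smul a y _ hy => intro c; rw [smul_smul]; exact hy (c * a)

lemma ιMulti_cons_eq_gen (δ : Derivation R A M) (p : ℕ) (b₀ : A) (b : Fin p → A) :
    ιMulti A (p + 1) (Fin.cons (δ b₀) (fun i => δ (b i))) =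
      gen δ (p + 1) 1 (Fin.cons b₀ b) := by
  rw [gen, one_smul]
  congr 1
  funext i
  refine Fin.cases ?_ ?_ i
  · simp
  · intro j; simp

end Groth.Agent.Lib.Helper23.DR
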