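import Groth.Prelude.Def_W4c2quivmodsheafKron
import Mathlib.Tactic
import Mathlib.LinearAlgebra.FiniteDimensional.Lemmas
import Mathlib.LinearAlgebra.Dimension.Constructions

/-! Helper lemmas for Kronecker modules (`KronMod`), shared by several statements. -/

namespace Groth.Agent.Lib.Helper23.Kron

open KronMod Module

variable {K : Type*} [Field K] {V W : Type*}
  [AddCommGroup V] [Module K V] [AddCommGroup W] [Module K W] {n : ℕ}

/-- The sum map `Vⁿ → W`, `(v_j) ↦ Σ f_j v_j`. -/
def sumMap (f : Fin n → (V →ₗ[K] W)) : (Fin n → V) →ₗ[K] W :=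
  ∑ j, (f j).comp (LinearMap.proj j)

@[simp] lemma sumMap_apply (f : Fin n → (V →ₗ[K] W)) (v : Fin n → V) :
    sumMap f v = ∑ j, f j (v j) := by
  simp [sumMap, LinearMap.sum_apply]

lemma coe_sumMap (f : Fin n → (V →ₗ[K] W)) :
    ⇑(sumMap f) = fun v => ∑ j, f j (v j) := funext (sumMap_apply f)

/-- The evaluation map `V → Wⁿ`, `v ↦ (f_j v)`. -/
def evalMap (f : Fin n → (V →ₗ[K] W)) : V →ₗ[K] (Fin n → W) := LinearMap.pi f

@[simp] lemma evalMap_apply (f : Fin n → (V →ₗ[K] W)) (v : V) :
    evalMap f v = fun j => f j v := rfl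

lemma coe_evalMap (f : Fin n → (V →ₗ[K] W)) :
    ⇑(evalMap f) = fun v j => f j v := rfl

lemma sumMap_single (f : Fin n → (V →ₗ[K] W)) (j : Fin n) (v : V) :
    sumMap f (Pi.single j v) = f j v := by
  classical
  rw [sumMap_apply, Finset.sum_eq_single j]
  · simp
  · intro k _ hk; simp [hk]
  · intro h; exact absurd (Finset.mem_univ j) h

lemma finrank_fun (M : Type*) [AddCommGroup M] [Module K M] [FiniteDimensional K M] :
    finrank K (Fin n → M) = n * finrank K M := by
  rw [Module.finrank_pi_fintype]
  simp

lemma isSubrep_top_range_sumMap (f : Fin n → (V →ₗ[K] W)) :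
    IsSubrep f ⊤ (LinearMap.range (sumMap f)) := by
  classical
  intro j
  rintro _ ⟨v, -, rfl⟩
  exact ⟨Pi.single j v, sumMap_single f j v⟩

lemma isSubrep_ker_evalMap_bot (f : Fin n → (V →ₗ[K] W)) :
    IsSubrep f (LinearMap.ker (evalMap f)) ⊥ := by
  intro j
  rintro _ ⟨v, hv, rfl⟩
  have : evalMap f v = 0 := hv
  have := congrFun this j
  simp only [evalMap_apply, Pi.zero_apply] at this
  simp [this]

lemma mapsTo_of_isSubrep {f : Fin n → (V →ₗ[K] W)} {V' : Submodule K V} {W' : Submodule K W}
    (h : IsSubrep f V' W') (j : Fin n) {v : V} (hv : v ∈ V') : f j v ∈ W' :=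
  h j ⟨v, hv, rfl⟩

lemma eq_bot_or_eq_top_of_finrank_eq_one {M : Type*} [AddCommGroup M] [Module K M]
    [FiniteDimensional K M] (h : finrank K M = 1) (N : Submodule K M) : N = ⊥ ∨ N = ⊤ := by
  have hle : finrank K N ≤ 1 := h ▸ Submodule.finrank_le N
  rcases Nat.le_one_iff_eq_zero_or_eq_one.1 hle with h0 | h1
  · exact Or.inl (Submodule.finrank_eq_zero.1 h0)
  · exact Or.inr (Submodule.eq_top_of_finrank_eq (h1.trans h.symm))

lemma top_ne_bot_of_finrank_pos {M : Type*} [AddCommGroup M] [Module K M]
    [FiniteDimensional K M] (h : 0 < finrank K M) : (⊤ : Submodule K M) ≠ ⊥ := by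
  intro h'
  rw [← finrank_top K M, h', finrank_bot] at h
  exact lt_irrefl 0 h

variable [FiniteDimensional K V] [FiniteDimensional K W]

/-- For a subrepresentation, if the sum map is injective then `n · dim V' ≤ dim W'`. -/
lemma n_mul_finrank_le_of_sumMap_injective {f : Fin n → (V →ₗ[K] W)}
    (hinj : Function.Injective (sumMap f)) {V' : Submodule K V} {W' : Submodule K W}
    (h : IsSubrep f V' W') : n * finrank K V' ≤ finrank K W' := by
  let g : (Fin n → V') →ₗ[K] W' :=
    { toFun := fun v => ⟨∑ j, f j (v j), W'.sum_mem fun j _ => mapsTo_of_isSubrep h j (v j).2⟩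
      map_add' := by intro x y; ext; simp [Finset.sum_add_distrib]
      map_smul' := by intro c x; ext; simp [Finset.smul_sum] }
  have hg : Function.Injective g := by
    intro x y hxy
    have hxy' : (∑ j, f j (x j) : W) = ∑ j, f j (y j) := congrArg Subtype.val hxy
    have : (fun j => ((x j : V))) = fun j => ((y j : V)) := by
      apply hinj
      simpa using hxy'
    funext j
    exact Subtype.ext (congrFun this j)
  have := LinearMap.finrank_le_finrank_of_injective hg
  rwa [finrank_fun] at this

/-- For a subrepresentation, if the evaluation map is injective then `dim V' ≤ n · dim W'`. -/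
lemma finrank_le_n_mul_of_evalMap_injective {f : Fin n → (V →ₗ[K] W)}
    (hinj : Function.Injective (evalMap f)) {V' : Submodule K V} {W' : Submodule K W}
    (h : IsSubrep f V' W') : finrank K V' ≤ n * finrank K W' := by
  let g : V' →ₗ[K] (Fin n → W') :=
    { toFun := fun v j => ⟨f j v, mapsTo_of_isSubrep h j v.2⟩
      map_add' := by intro x y; funext j; ext; simp
      map_smul' := by intro c x; funext j; ext; simp }
  have hg : Function.Injective g := by
    intro x y hxy
    apply Subtype.ext
    apply hinj
    funext j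
    have := congrArg Subtype.val (congrFun hxy j)
    simpa [g] using this
  have := LinearMap.finrank_le_finrank_of_injective hg
  rwa [finrank_fun] at this

/-- Dimension vector `(d, n d)`: semistable iff the sum map is bijective. -/
theorem isSemistable_iff_sumMap_bijective (f : Fin n → (V →ₗ[K] W))
    (hV : 0 < finrank K V) (hW : finrank K W = n * finrank K V) :
    IsSemistable f ↔ Function.Bijective (sumMap f) := by
  have hrank : finrank K (Fin n → V) = finrank K W := by rw [finrank_fun, hW]
  constructor
  · rintro ⟨-, hss⟩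
    have hsurj : Function.Surjective (sumMap f) := by
      rw [← LinearMap.range_eq_top]
      by_contra hne
      have hVtop : (⊤ : Submodule K V) ≠ ⊥ := by
        intro h
        rw [← finrank_top K V, h, finrank_bot] at hV
        exact lt_irrefl 0 hV
      have := hss ⊤ _ (isSubrep_top_range_sumMap f) (fun h => hVtop h.1) (fun h => hne h.2)
      rw [finrank_top] at this
      have h2 : finrank K W ≤ finrank K (LinearMap.range (sumMap f)) := by
        rw [mul_comm] at this
        exact Nat.le_of_mul_le_mul_left this hV
      exact hne (Submodule.eq_top_of_finrank_eq (le_antisymm (Submodule.finrank_le _) h2))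
    exact ⟨(LinearMap.injective_iff_surjective_of_finrank_eq_finrank hrank).2 hsurj, hsurj⟩
  · intro hb
    refine ⟨by omega, ?_⟩
    intro V' W' hsub _ _
    have := n_mul_finrank_le_of_sumMap_injective hb.1 hsub
    rw [hW, mul_comm n, mul_assoc]
    exact Nat.mul_le_mul_left _ this

/-- Dimension vector `(n d, d)`: semistable iff the evaluation map is bijective. -/
theorem isSemistable_iff_evalMap_bijective (f : Fin n → (V →ₗ[K] W))
    (hW : 0 < finrank K W) (hV : finrank K V = n * finrank K W) :
    IsSemistable f ↔ Function.Bijective (evalMap f) := by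
  have hrank : finrank K V = finrank K (Fin n → W) := by rw [finrank_fun, hV]
  constructor
  · rintro ⟨-, hss⟩
    have hinj : Function.Injective (evalMap f) := by
      rw [← LinearMap.ker_eq_bot]
      by_contra hne
      have hWbot : (⊥ : Submodule K W) ≠ ⊤ := by
        intro h
        rw [← finrank_top K W, ← h, finrank_bot] at hW
        exact lt_irrefl 0 hW
      have := hss _ ⊥ (isSubrep_ker_evalMap_bot f) (fun h => hne h.1) (fun h => hWbot h.2)
      rw [finrank_bot, mul_zero] at this
      have h0 : finrank K (LinearMap.ker (evalMap f)) = 0 := by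
        rcases Nat.eq_zero_or_pos (finrank K (LinearMap.ker (evalMap f))) with h | h
        · exact h
        · exfalso; have := Nat.mul_pos hW h; omega
      exact hne (Submodule.finrank_eq_zero.1 h0)
    exact ⟨hinj, (LinearMap.injective_iff_surjective_of_finrank_eq_finrank hrank).1 hinj⟩
  · intro hb
    refine ⟨by omega, ?_⟩
    intro V' W' hsub _ _
    have := finrank_le_n_mul_of_evalMap_injective hb.1 hsub
    rw [hV, mul_comm n, mul_assoc]
    exact Nat.mul_le_mul_left _ this

end Groth.Agent.Lib.Helper23.Kron
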