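import Groth.Prelude.Def_SchFin
import Mathlib

/-!
# Helper lemmas for finite ringed posets (`SchFin`) (helper23)

* `connectedSpace_primeSpectrum_iff`: the spectrum of a commutative ring is connected iff the ring is
  nontrivial and has no idempotents other than `0` and `1`.
-/

set_option autoImplicit false

namespace Groth.Agent.Lib.Helper23.SchFinLib

theorem idem_of_basicOpen_eq_bot {R : Type*} [CommRing R] {e : R} (he : IsIdempotentElem e)
    (h : PrimeSpectrum.basicOpen e = ⊥) : e = 0 :=
  he.eq_zero_of_isNilpotent ((PrimeSpectrum.basicOpen_eq_bot_iff e).1 h)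

theorem connectedSpace_primeSpectrum_iff (R : Type*) [CommRing R] :
    ConnectedSpace (PrimeSpectrum R) ↔
      Nontrivial R ∧ ∀ e : R, IsIdempotentElem e → e = 0 ∨ e = 1 := by
  constructor
  · intro hc
    obtain ⟨p⟩ := hc.toNonempty
    refine ⟨⟨0, 1, fun h => p.2.ne_top ((Ideal.eq_top_iff_one _).2 (h ▸ p.asIdeal.zero_mem))⟩,
      fun e he => ?_⟩
    have hmul : e * (1 - e) = 0 := by rw [mul_sub, mul_one, he.eq, sub_self]
    have hcl := PrimeSpectrum.isClopen_basicOpen_of_mul_add e (1 - e) hmul (by ring)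
    rcases isClopen_iff.1 hcl with h | h
    · left
      refine idem_of_basicOpen_eq_bot he ?_
      apply TopologicalSpace.Opens.ext
      rw [TopologicalSpace.Opens.coe_bot]
      exact h
    · right
      have he' : IsIdempotentElem (1 - e) := he.one_sub
      have := idem_of_basicOpen_eq_bot he' (by
        apply TopologicalSpace.Opens.ext
        rw [TopologicalSpace.Opens.coe_bot]
        refine Set.eq_empty_iff_forall_notMem.2 fun q hq => ?_
        rw [SetLike.mem_coe, PrimeSpectrum.mem_basicOpen] at hq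
        have hq' : q ∈ (PrimeSpectrum.basicOpen e : Set (PrimeSpectrum R)) := h ▸ Set.mem_univ q
        rw [SetLike.mem_coe, PrimeSpectrum.mem_basicOpen] at hq'
        have h0 : e * (1 - e) ∈ q.asIdeal := hmul ▸ q.asIdeal.zero_mem
        rcases q.2.mem_or_mem h0 with h1 | h1
        · exact hq' h1
        · exact hq h1)
      exact (sub_eq_zero.1 this).symm
  · rintro ⟨hnt, hid⟩
    have hpre : PreconnectedSpace (PrimeSpectrum R) := by
      rw [preconnectedSpace_iff_clopen]
      intro s hs
      obtain ⟨e, f, hmul, hadd, rfl⟩ := PrimeSpectrum.isClopen_iff_mul_add.1 hs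
      rcases hid e (IsIdempotentElem.of_mul_add hmul hadd).1 with h | h
      · left; rw [h, PrimeSpectrum.basicOpen_zero]; rfl
      · right; rw [h, PrimeSpectrum.basicOpen_one]; rfl
    exact @ConnectedSpace.mk _ _ hpre inferInstance


open SchFin TensorProduct

universe u

theorem str_res_apply {X : RSpace.{u}} {p q : X.pt} (h : p ≤ q) (a : X.ring p) :
    (X.str.res h) a = X.res h a := rfl

/-- A degree-zero cochain given by restricting an element of the ring of a point below `U`. -/
def secC {X : RSpace.{u}} {U : Set X.pt} {R : Type u} [CommRing R] (φ : Coef X U R)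
    (y : X.pt) (hU : ∀ q ∈ U, y ≤ q) (b : X.ring y) : Cochain φ X.str 0 :=
  fun σ => X.res (hU _ (σ (Fin.last 0)).2) b

theorem secC_mem {X : RSpace.{u}} {U : Set X.pt} {R : Type u} [CommRing R] (φ : Coef X U R)
    (y : X.pt) (hU : ∀ q ∈ U, y ≤ q) (b : X.ring y) :
    secC φ y hU b ∈ cocycles φ X.str 0 := by
  show diff φ X.str 0 _ = 0
  funext σ
  show (∑ j : Fin 2, ((-1 : ℤ) ^ (j : ℕ)) • Cochain.faceVal _ σ j) = 0
  rw [Fin.sum_univ_two]
  unfold Cochain.faceVal
  simp only [str_res_apply, secC, X.res_comp]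
  simp


/-- The chain consisting of a single point. -/
def pointChain {X : RSpace.{u}} {U : Set X.pt} (q : U) : Chain U 0 :=
  OrderEmbedding.ofStrictMono (fun _ => q) (fun a b hab => absurd hab (by
    have := a.2; have := b.2; rw [Fin.lt_def]; omega))

/-- In a schematic space, `b ⊗ 1 = 1 ⊗ b` in `O_y ⊗_{O_x} O_y` for `x ≤ y`. -/
theorem tmul_one_eq (X : RSpace.{u}) (hX : X.IsSchematic) {x y : X.pt} (h : x ≤ y) :
    letI := (X.res h).toAlgebra
    ∀ b : X.ring y, b ⊗ₜ[X.ring x] (1 : X.ring y) = (1 : X.ring y) ⊗ₜ[X.ring x] b := by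
  letI := (X.res h).toAlgebra
  intro b
  obtain ⟨-, -, hcond⟩ := hX
  have hyW1 : y ∈ (Hom.id X).wedge x y := ⟨h, le_rfl⟩
  let φ := Coef.ofLE x ((Hom.id X).wedge x y) ((Hom.id X).wedge_subset_up x y)
  let φ' := Coef.ofLE y ((Hom.id X).wedge y y) ((Hom.id X).wedge_subset_up y y)
  letI : Module (X.ring x) (H φ' X.str 0) := Module.compHom _ (X.res h)
  haveI : IsScalarTower (X.ring x) (X.ring y) (H φ' X.str 0) :=
    IsScalarTower.of_algebraMap_smul fun _ _ => rfl
  let Fl : H φ X.str 0 →ₗ[X.ring x] H φ' X.str 0 :=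
    { toFun := resH X.str ((Hom.id X).subSrc h y) 0
      map_add' := (resH X.str ((Hom.id X).subSrc h y) 0).map_add
      map_smul' := (resH X.str ((Hom.id X).subSrc h y) 0).map_smulₛₗ }
  have hBC : IsBaseChange (X.ring y) Fl := (hcond 0 x y h y y le_rfl).1
  have hU : ∀ q ∈ (Hom.id X).wedge x y, y ≤ q := fun q hq => hq.2
  have hU' : ∀ q ∈ (Hom.id X).wedge y y, y ≤ q := fun q hq => hq.2
  let m : X.ring y → H φ X.str 0 := fun b => H.mk φ X.str 0 ⟨secC φ y hU b, secC_mem φ y hU b⟩
  let m' : X.ring y → H φ' X.str 0 := fun b =>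
    H.mk φ' X.str 0 ⟨secC φ' y hU' b, secC_mem φ' y hU' b⟩
  have hF : ∀ b, resH X.str ((Hom.id X).subSrc h y) 0 (m b) = m' b := fun b => rfl
  have key : b ⊗ₜ[X.ring x] (m 1) = (1 : X.ring y) ⊗ₜ[X.ring x] (m b) := by
    apply hBC.equiv.injective
    rw [hBC.equiv_tmul, hBC.equiv_tmul, one_smul]
    show b • resH X.str ((Hom.id X).subSrc h y) 0 (m 1) =
      resH X.str ((Hom.id X).subSrc h y) 0 (m b)
    rw [hF, hF]
    show b • H.mk φ' X.str 0 _ = H.mk φ' X.str 0 _
    rw [← map_smul]
    congr 1
    apply Subtype.ext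
    funext σ
    show φ'.map (σ (Fin.last 0)) b • secC φ' y hU' 1 σ = secC φ' y hU' b σ
    simp only [secC, map_one]
    exact mul_one (M := X.ring (σ (Fin.last 0)).1) _
  -- evaluation at y
  let σy : Chain ((Hom.id X).wedge x y) 0 := pointChain ⟨y, hyW1⟩
  let evC : cocycles φ X.str 0 →ₗ[X.ring x] X.ring y :=
    { toFun := fun c => c.1 σy
      map_add' := fun _ _ => rfl
      map_smul' := fun a c => rfl }
  let ev : H φ X.str 0 →ₗ[X.ring x] X.ring y :=
    Submodule.liftQ ((cobdry φ X.str 0).comap (cocycles φ X.str 0).subtype) evC (by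
      intro c hc
      have hc' : c.1 = 0 := by
        have : (c : Cochain φ X.str 0) ∈ (⊥ : Submodule (X.ring x) (Cochain φ X.str 0)) := hc
        exact (Submodule.mem_bot _).1 this
      show c.1 σy = 0
      rw [hc']; rfl)
  have hev : ∀ b, ev (m b) = b := fun b => X.res_self y b
  have := congrArg (LinearMap.lTensor (X.ring y) ev) key
  rw [LinearMap.lTensor_tmul, LinearMap.lTensor_tmul, hev, hev] at this
  exact this

/-- In a schematic space, restriction maps are epimorphisms of rings. -/
theorem res_epi (X : RSpace.{u}) (hX : X.IsSchematic) {x y : X.pt} (h : x ≤ y)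
    {T : Type*} [CommRing T] (g₁ g₂ : X.ring y →+* T)
    (hg : g₁.comp (X.res h) = g₂.comp (X.res h)) : g₁ = g₂ := by
  letI := (X.res h).toAlgebra
  letI : Algebra (X.ring x) T := (g₂.comp (X.res h)).toAlgebra
  let f' : X.ring y →ₐ[X.ring x] T := ⟨g₁, fun r => RingHom.congr_fun hg r⟩
  let g' : X.ring y →ₐ[X.ring x] T := ⟨g₂, fun _ => rfl⟩
  ext s
  have := congrArg (Algebra.TensorProduct.lift f' g' (fun _ _ => .all _ _))
    (tmul_one_eq X hX h s)
  simpa [f', g'] using this


/-- A faithfully flat algebra which is an epimorphism (`b ⊗ 1 = 1 ⊗ b`) is bijective. -/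
theorem bijective_of_faithfullyFlat_of_tmul {A B : Type*} [CommRing A] [CommRing B] [Algebra A B]
    [Module.FaithfullyFlat A B] (hepi : ∀ b : B, b ⊗ₜ[A] (1 : B) = (1 : B) ⊗ₜ[A] b) :
    Function.Bijective (algebraMap A B) := by
  refine ⟨FaithfulSMul.algebraMap_injective A B, ?_⟩
  have hsurj : Function.Surjective ((Algebra.linearMap A B).lTensor B) := by
    intro z
    have h' : ∃ b : B, z = b ⊗ₜ[A] (1 : B) := by
      induction z using TensorProduct.induction_on with
      | zero => exact ⟨0, by simp⟩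
      | tmul u v =>
        refine ⟨u * v, ?_⟩
        calc u ⊗ₜ[A] v = (u ⊗ₜ[A] (1 : B)) * ((1 : B) ⊗ₜ[A] v) := by simp
          _ = (u ⊗ₜ[A] (1 : B)) * (v ⊗ₜ[A] (1 : B)) := by rw [hepi v]
          _ = (u * v) ⊗ₜ[A] (1 : B) := by simp
      | add u v hu hv =>
        obtain ⟨u, rfl⟩ := hu
        obtain ⟨v, rfl⟩ := hv
        exact ⟨u + v, by rw [add_tmul]⟩
    obtain ⟨b, rfl⟩ := h'
    exact ⟨b ⊗ₜ 1, by simp⟩
  exact (Module.FaithfullyFlat.lTensor_surjective_iff_surjective A B
    (Algebra.linearMap A B)).1 hsurj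

/-- In a schematic space, for `x ≤ y` and a prime `P` of `O_y` lying over `Q`, the local ring map
`(O_x)_Q → (O_y)_P` is bijective (restriction maps are flat epimorphisms). -/
theorem localRingHom_bijective (X : RSpace.{u}) (hX : X.IsSchematic) {x y : X.pt} (h : x ≤ y)
    (P : Ideal (X.ring y)) [P.IsPrime] (Q : Ideal (X.ring x)) [Q.IsPrime]
    (hQ : Q = P.comap (X.res h)) :
    Function.Bijective (Localization.localRingHom Q P (X.res h) hQ) := by
  subst hQ
  let L := Localization.localRingHom (P.comap (X.res h)) P (X.res h) rfl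
  letI : Algebra (Localization.AtPrime (P.comap (X.res h))) (Localization.AtPrime P) := L.toAlgebra
  have hflat : L.Flat := RingHom.Flat.localRingHom (hX.1.2 x y h) P _ rfl
  haveI : Module.Flat (Localization.AtPrime (P.comap (X.res h))) (Localization.AtPrime P) := hflat
  haveI : IsLocalHom (algebraMap (Localization.AtPrime (P.comap (X.res h)))
      (Localization.AtPrime P)) :=
    Localization.isLocalHom_localRingHom _ P (X.res h) rfl
  haveI : Module.FaithfullyFlat (Localization.AtPrime (P.comap (X.res h)))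
      (Localization.AtPrime P) := Module.FaithfullyFlat.of_flat_of_isLocalHom
  refine bijective_of_faithfullyFlat_of_tmul (fun z => ?_)
  let g₁ : Localization.AtPrime P →+*
      Localization.AtPrime P ⊗[Localization.AtPrime (P.comap (X.res h))] Localization.AtPrime P :=
    Algebra.TensorProduct.includeLeftRingHom
  let g₂ : Localization.AtPrime P →+*
      Localization.AtPrime P ⊗[Localization.AtPrime (P.comap (X.res h))] Localization.AtPrime P :=
    Algebra.TensorProduct.includeRight.toRingHom
  have hAQ : ∀ a, g₁ (L a) = g₂ (L a) := by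
    intro a
    show L a ⊗ₜ (1 : Localization.AtPrime P) = (1 : Localization.AtPrime P) ⊗ₜ L a
    have hL : L a = a • (1 : Localization.AtPrime P) := by
      rw [Algebra.smul_def, mul_one]; rfl
    rw [hL, TensorProduct.smul_tmul]
  have hB : g₁.comp (algebraMap (X.ring y) (Localization.AtPrime P)) =
      g₂.comp (algebraMap (X.ring y) (Localization.AtPrime P)) := by
    refine res_epi X hX h _ _ ?_
    ext a
    simp only [RingHom.comp_apply]
    rw [← Localization.localRingHom_to_map (P.comap (X.res h)) P (X.res h) rfl a]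
    exact hAQ _
  have hg : g₁ = g₂ := IsLocalization.ringHom_ext P.primeCompl hB
  exact RingHom.congr_fun hg z

/-- In a schematic space the residue field maps between comparable points are bijective. -/
theorem residueFieldMap_bijective (X : RSpace.{u}) (hX : X.IsSchematic) {x y : X.pt} (h : x ≤ y)
    (P : Ideal (X.ring y)) [P.IsPrime] (Q : Ideal (X.ring x)) [Q.IsPrime]
    (hQ : Q = P.comap (X.res h)) :
    Function.Bijective (Ideal.ResidueField.map Q P (X.res h) hQ) :=
  ⟨RingHom.injective _, Ideal.Quotient.lift_surjective_of_surjective _ _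
    (Ideal.Quotient.mk_surjective.comp (localRingHom_bijective X hX h P Q hQ).2)⟩

end Groth.Agent.Lib.Helper23.SchFinLib
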