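import Groth.Agent.Lib.Helper23.SchFinLib
import Groth.Prelude.Def_SchFin2

/-!
# Degree-zero cohomology of finite ringed posets and pairs of points (helper23)
-/

set_option autoImplicit false

namespace Groth.Agent.Lib.Helper23.SchFinPair

open SchFin TensorProduct Groth.Agent.Lib.Helper23.SchFinLib

universe u

variable {X : RSpace.{u}}

theorem chain0_eq {U : Set X.pt} (σ : Chain U 0) : σ = pointChain (σ (Fin.last 0)) := by
  apply RelEmbedding.ext
  intro i
  obtain rfl : i = Fin.last 0 := Fin.ext (by have := i.2; simp only [Fin.val_last]; omega)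
  rfl

theorem cochain0_transport {U : Set X.pt} {R : Type u} [CommRing R] {φ : Coef X U R}
    (c : Cochain φ X.str 0) {τ τ' : Chain U 0} (h : τ = τ')
    (hle : (τ (Fin.last 0)).1 ≤ (τ' (Fin.last 0)).1) :
    X.res hle (c τ) = c τ' := by
  subst h; exact X.res_self _ _

/-- The chain `q < q'`. -/
def edgeChain {U : Set X.pt} (q q' : U) (h : q < q') : Chain U 1 :=
  OrderEmbedding.ofStrictMono (fun i => if i = 0 then q else q') (by
    intro a b hab
    have ha : a = 0 := by
      rcases Fin.exists_fin_two.1 ⟨a, rfl⟩ with h0 | h1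
      · exact h0
      · exfalso; rw [h1] at hab; exact absurd hab (by have := b.2; rw [Fin.lt_def]; simp; omega)
    have hb : b = 1 := by
      rcases Fin.exists_fin_two.1 ⟨b, rfl⟩ with h0 | h1
      · exfalso; rw [h0] at hab; exact absurd hab (by rw [Fin.lt_def]; simp)
      · exact h1
    subst ha; subst hb
    simpa using h)

theorem edgeChain_last {U : Set X.pt} (q q' : U) (h : q < q') :
    (edgeChain q q' h) (Fin.last 1) = q' := rfl

theorem edgeChain_zero {U : Set X.pt} (q q' : U) (h : q < q') :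
    (edgeChain q q' h) 0 = q := rfl

theorem edgeChain_face0 {U : Set X.pt} (q q' : U) (h : q < q') :
    pointChain q' = (edgeChain q q' h).face 0 := by
  apply RelEmbedding.ext
  intro i
  obtain rfl : i = Fin.last 0 := Fin.ext (by have := i.2; simp only [Fin.val_last]; omega)
  rfl

theorem edgeChain_face1 {U : Set X.pt} (q q' : U) (h : q < q') :
    pointChain q = (edgeChain q q' h).face 1 := by
  apply RelEmbedding.ext
  intro i
  obtain rfl : i = Fin.last 0 := Fin.ext (by have := i.2; simp only [Fin.val_last]; omega)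
  rfl

theorem cocycle0_res {U : Set X.pt} {R : Type u} [CommRing R] {φ : Coef X U R}
    (c : Cochain φ X.str 0) (hc : c ∈ cocycles φ X.str 0) (q q' : U) (h : q.1 ≤ q'.1) :
    X.res h (c (pointChain q)) = c (pointChain q') := by
  rcases eq_or_lt_of_le (show q ≤ q' from h) with heq | hlt
  · subst heq; exact X.res_self _ _
  · have hd : diff φ X.str 0 c (edgeChain q q' hlt) = 0 := by
      rw [show diff φ X.str 0 c = 0 from hc]; rfl
    change (∑ j : Fin 2, ((-1 : ℤ) ^ (j : ℕ)) • c.faceVal (edgeChain q q' hlt) j) = 0 at hd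
    rw [Fin.sum_univ_two] at hd
    unfold Cochain.faceVal at hd
    simp only [str_res_apply] at hd
    rw [← cochain0_transport c (edgeChain_face0 q q' hlt)
        (le_of_eq (congrArg (fun t : Chain U 0 => (t (Fin.last 0)).1) (edgeChain_face0 q q' hlt))),
      ← cochain0_transport c (edgeChain_face1 q q' hlt)
        (le_of_eq (congrArg (fun t : Chain U 0 => (t (Fin.last 0)).1) (edgeChain_face1 q q' hlt))),
      X.res_comp, X.res_comp] at hd
    rw [Fin.val_zero, Fin.val_one, pow_zero, pow_one, one_zsmul, neg_one_zsmul,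
      ← sub_eq_add_neg, sub_eq_zero] at hd
    have e : X.res (le_refl q'.1) (c (pointChain q')) = c (pointChain q') := X.res_self _ _
    exact hd.symm.trans e


/-- Degree-zero cocycles → sections of the rings. -/
def betaC {U : Set X.pt} {R : Type u} [CommRing R] (φ : Coef X U R) (c : cocycles φ X.str 0) :
    X.sectRing U :=
  ⟨fun q => c.1 (pointChain q), fun q q' h => cocycle0_res c.1 c.2 q q' h⟩

theorem betaC_apply {U : Set X.pt} {R : Type u} [CommRing R] (φ : Coef X U R)
    (c : cocycles φ X.str 0) (q : U) : (betaC φ c).1 q = c.1 (pointChain q) := rfl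

theorem betaC_bijective {U : Set X.pt} {R : Type u} [CommRing R] (φ : Coef X U R) :
    Function.Bijective (betaC φ) := by
  constructor
  · intro c d hcd
    apply Subtype.ext
    funext σ
    obtain ⟨q, rfl⟩ : ∃ q, σ = pointChain q := ⟨_, chain0_eq σ⟩
    exact congrFun (congrArg Subtype.val hcd) q
  · intro t
    let c : Cochain φ X.str 0 := fun σ => t.1 (σ (Fin.last 0))
    have hc : c ∈ cocycles φ X.str 0 := by
      show diff φ X.str 0 c = 0
      funext σ
      show (∑ j : Fin 2, ((-1 : ℤ) ^ (j : ℕ)) • Cochain.faceVal c σ j) = 0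
      rw [Fin.sum_univ_two]
      unfold Cochain.faceVal
      simp only [str_res_apply, c]
      rw [t.2, t.2]
      simp
    exact ⟨⟨c, hc⟩, rfl⟩

/-- In degree zero, the class map from cocycles to cohomology is bijective. -/
theorem Hmk_bijective {U : Set X.pt} {R : Type u} [CommRing R] (φ : Coef X U R) :
    Function.Bijective (H.mk φ X.str 0) := by
  constructor
  · rw [← LinearMap.ker_eq_bot, eq_bot_iff]
    intro c hc
    rw [LinearMap.mem_ker] at hc
    have : c ∈ (cobdry φ X.str 0).comap (cocycles φ X.str 0).subtype :=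
      (Submodule.Quotient.mk_eq_zero _).1 hc
    have h2 : (c : Cochain φ X.str 0) ∈ (⊥ : Submodule R (Cochain φ X.str 0)) := this
    rw [Submodule.mem_bot] at h2 ⊢
    exact Subtype.ext h2
  · exact Submodule.mkQ_surjective _

/-- `resSect` to a set with a least point `y` is bijective. -/
theorem resSect_bijective (y : X.pt) (U : Set X.pt) (hU : U ⊆ X.up y) (hy : y ∈ U) :
    Function.Bijective (X.resSect y U hU) := by
  constructor
  · intro a b hab
    have := congrFun (congrArg Subtype.val hab) ⟨y, hy⟩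
    have e1 : X.res (hU hy) a = a := X.res_self y a
    have e2 : X.res (hU hy) b = b := X.res_self y b
    rw [← e1, ← e2]
    exact this
  · intro t
    refine ⟨t.1 ⟨y, hy⟩, ?_⟩
    apply Subtype.ext
    funext q
    exact t.2 ⟨y, hy⟩ q (hU q.2)


theorem betaC_add {U : Set X.pt} {R : Type u} [CommRing R] (φ : Coef X U R)
    (c d : cocycles φ X.str 0) : betaC φ (c + d) = betaC φ c + betaC φ d := rfl

theorem betaC_zero {U : Set X.pt} {R : Type u} [CommRing R] (φ : Coef X U R) :
    betaC φ 0 = 0 := rfl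

/-- For `s ≤ x`, `s ≤ y` in a schematic space, `O_x ⊗_{O_s} O_y → Γ(U_x ∩ U_y)` is bijective. -/
theorem pair_tensor_equiv (X : RSpace.{u}) (hX : X.IsSchematic) {s x y : X.pt} (hsx : s ≤ x)
    (hsy : s ≤ y) :
    letI := (X.res hsx).toAlgebra
    letI := (X.res hsy).toAlgebra
    ∃ Φ : X.ring x ⊗[X.ring s] X.ring y →+* X.sectRing ((Hom.id X).wedge x y),
      Function.Bijective Φ ∧ ∀ a b, Φ (a ⊗ₜ b) =
        X.resSect x _ (fun _ hq => hq.1) a * X.resSect y _ (fun _ hq => hq.2) b := by
  letI := (X.res hsx).toAlgebra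
  letI := (X.res hsy).toAlgebra
  have hWx : (Hom.id X).wedge x y ⊆ X.up x := fun _ hq => hq.1
  have hWy : (Hom.id X).wedge x y ⊆ X.up y := fun _ hq => hq.2
  have hWs : (Hom.id X).wedge x y ⊆ X.up s := fun _ hq => hsx.trans hq.1
  letI : Algebra (X.ring s) (X.sectRing ((Hom.id X).wedge x y)) :=
    (X.resSect s _ hWs).toAlgebra
  have hcx : ∀ c : X.ring s, X.resSect x _ hWx (algebraMap (X.ring s) (X.ring x) c) =
      algebraMap (X.ring s) (X.sectRing ((Hom.id X).wedge x y)) c := fun c => by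
    apply Subtype.ext; funext q
    exact X.res_comp hsx _ c
  have hcy : ∀ c : X.ring s, X.resSect y _ hWy (algebraMap (X.ring s) (X.ring y) c) =
      algebraMap (X.ring s) (X.sectRing ((Hom.id X).wedge x y)) c := fun c => by
    apply Subtype.ext; funext q
    exact X.res_comp hsy _ c
  let ρx : X.ring x →ₐ[X.ring s] X.sectRing ((Hom.id X).wedge x y) :=
    AlgHom.mk (X.resSect x _ hWx) hcx
  let ρy : X.ring y →ₐ[X.ring s] X.sectRing ((Hom.id X).wedge x y) :=
    AlgHom.mk (X.resSect y _ hWy) hcy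
  let Φ := Algebra.TensorProduct.lift ρx ρy (fun _ _ => .all _ _)
  refine ⟨Φ.toRingHom, ?_, fun a b => rfl⟩
  obtain ⟨-, -, hcond⟩ := hX
  let φs := Coef.ofLE s ((Hom.id X).wedge s y) ((Hom.id X).wedge_subset_up s y)
  let φx := Coef.ofLE x ((Hom.id X).wedge x y) ((Hom.id X).wedge_subset_up x y)
  letI : Module (X.ring s) (H φx X.str 0) := Module.compHom _ (X.res hsx)
  haveI : IsScalarTower (X.ring s) (X.ring x) (H φx X.str 0) :=
    IsScalarTower.of_algebraMap_smul fun _ _ => rfl
  let Fl : H φs X.str 0 →ₗ[X.ring s] H φx X.str 0 :=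
    { toFun := resH X.str ((Hom.id X).subSrc hsx y) 0
      map_add' := (resH X.str ((Hom.id X).subSrc hsx y) 0).map_add
      map_smul' := (resH X.str ((Hom.id X).subSrc hsx y) 0).map_smulₛₗ }
  have hBC : IsBaseChange (X.ring x) Fl := (hcond 0 s x hsx y y le_rfl).1
  have hUs : ∀ q ∈ (Hom.id X).wedge s y, y ≤ q := fun _ hq => hq.2
  have hUx : ∀ q ∈ (Hom.id X).wedge x y, y ≤ q := fun _ hq => hq.2
  let g : X.ring y → cocycles φs X.str 0 := fun b => ⟨secC φs y hUs b, secC_mem φs y hUs b⟩
  let α : X.ring y →ₗ[X.ring s] H φs X.str 0 :=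
    { toFun := fun b => H.mk φs X.str 0 (g b)
      map_add' := fun b b' => by
        rw [← map_add]; congr 1; apply Subtype.ext; funext σ; exact map_add _ _ _
      map_smul' := fun c b => by
        rw [RingHom.id_apply, ← map_smul]; congr 1; apply Subtype.ext; funext σ
        show secC φs y hUs (X.res hsy c * b) σ = φs.map (σ (Fin.last 0)) c • secC φs y hUs b σ
        simp only [secC, map_mul, X.res_comp]
        rfl }
  have hg : Function.Bijective g := by
    have h1 : (betaC φs) ∘ g = X.resSect y ((Hom.id X).wedge s y) (fun _ hq => hq.2) := by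
      funext b; apply Subtype.ext; funext q; rfl
    have h2 : Function.Bijective ((betaC φs) ∘ g) := by
      rw [h1]; exact resSect_bijective y _ _ ⟨hsy, le_rfl⟩
    exact (Function.Bijective.of_comp_iff' (betaC_bijective φs) g).1 h2
  have hα : Function.Bijective α := (Hmk_bijective φs).comp hg
  let αe := LinearEquiv.ofBijective α hα
  let eX := LinearEquiv.ofBijective (H.mk φx X.str 0) (Hmk_bijective φx)
  have hΦ : ∀ t, Φ t = betaC φx (eX.symm (hBC.equiv (αe.lTensor (X.ring x) t))) := by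
    intro t
    induction t using TensorProduct.induction_on with
    | zero => rw [map_zero, map_zero, map_zero, map_zero, betaC_zero]
    | tmul a b =>
      rw [LinearEquiv.lTensor_tmul, hBC.equiv_tmul]
      have h1 : Fl (αe b) = H.mk φx X.str 0 ⟨secC φx y hUx b, secC_mem φx y hUx b⟩ := rfl
      rw [h1, ← map_smul]
      have h2 : eX.symm (H.mk φx X.str 0 (a • ⟨secC φx y hUx b, secC_mem φx y hUx b⟩)) =
          a • ⟨secC φx y hUx b, secC_mem φx y hUx b⟩ :=
        eX.symm_apply_apply _
      rw [h2]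
      rfl
    | add t t' ht ht' => rw [map_add, ht, ht', map_add, map_add, map_add, betaC_add]
  show Function.Bijective Φ
  have : (Φ : X.ring x ⊗[X.ring s] X.ring y → X.sectRing ((Hom.id X).wedge x y)) =
      betaC φx ∘ eX.symm ∘ hBC.equiv ∘ αe.lTensor (X.ring x) := funext hΦ
  rw [this]
  exact (betaC_bijective φx).comp (eX.symm.bijective.comp
    (hBC.equiv.bijective.comp (αe.lTensor (X.ring x)).bijective))


/-- A type synonym used to put an auxiliary algebra structure on a ring without instance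
clashes. -/
def Syn (T : Type*) := T

instance {T : Type*} [h : CommRing T] : CommRing (Syn T) := h

/-- Given primes `P ⊆ A`, `Q ⊆ B` over the same prime of `R`, there is a prime of `A ⊗[R] B`
lying over both. -/
theorem exists_prime_tensor {R A B : Type*} [CommRing R] [CommRing A] [CommRing B]
    [Algebra R A] [Algebra R B]
    (P : Ideal A) [P.IsPrime] (Q : Ideal B) [Q.IsPrime]
    (h : P.comap (algebraMap R A) = Q.comap (algebraMap R B)) :
    ∃ M : Ideal (A ⊗[R] B), M.IsPrime ∧
      M.comap (Algebra.TensorProduct.includeLeftRingHom) = P ∧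
      M.comap (Algebra.TensorProduct.includeRight.toRingHom) = Q := by
  set p := P.comap (algebraMap R A) with hp
  letI : Algebra p.ResidueField P.ResidueField :=
    (Ideal.ResidueField.map p P (algebraMap R A) rfl).toAlgebra
  letI : Algebra p.ResidueField Q.ResidueField :=
    (Ideal.ResidueField.map p Q (algebraMap R B) h).toAlgebra
  haveI hnt : Nontrivial (P.ResidueField ⊗[p.ResidueField] Q.ResidueField) :=
    Algebra.TensorProduct.nontrivial_of_algebraMap_injective_of_isDomain _ _ _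
      (RingHom.injective _) (RingHom.injective _)
  let T := Syn (P.ResidueField ⊗[p.ResidueField] Q.ResidueField)
  haveI : Nontrivial T := hnt
  let iL : P.ResidueField →+* T := Algebra.TensorProduct.includeLeftRingHom
  let iR : Q.ResidueField →+* T := Algebra.TensorProduct.includeRight.toRingHom
  let aT : p.ResidueField →+* T :=
    algebraMap p.ResidueField (P.ResidueField ⊗[p.ResidueField] Q.ResidueField)
  letI : Algebra R T := (aT.comp (algebraMap R p.ResidueField)).toAlgebra
  let gA : A →ₐ[R] T :=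
    AlgHom.mk (iL.comp (algebraMap A P.ResidueField))
      (fun r => by
        show (algebraMap A P.ResidueField (algebraMap R A r)) ⊗ₜ (1 : Q.ResidueField) =
          algebraMap p.ResidueField (P.ResidueField ⊗[p.ResidueField] Q.ResidueField)
            (algebraMap R p.ResidueField r)
        rw [Algebra.TensorProduct.algebraMap_apply]
        congr 1
        exact (Ideal.ResidueField.map_algebraMap p P (algebraMap R A) rfl r).symm)
  let gB : B →ₐ[R] T :=
    AlgHom.mk (iR.comp (algebraMap B Q.ResidueField))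
      (fun r => by
        show (1 : P.ResidueField) ⊗ₜ (algebraMap B Q.ResidueField (algebraMap R B r)) =
          algebraMap p.ResidueField (P.ResidueField ⊗[p.ResidueField] Q.ResidueField)
            (algebraMap R p.ResidueField r)
        rw [Algebra.TensorProduct.algebraMap_apply']
        congr 1
        exact (Ideal.ResidueField.map_algebraMap p Q (algebraMap R B) h r).symm)
  let g := (Algebra.TensorProduct.lift gA gB (fun _ _ => .all _ _)).toRingHom
  obtain ⟨𝔪, h𝔪⟩ := Ideal.exists_maximal T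
  refine ⟨𝔪.comap g, Ideal.comap_isPrime g 𝔪, ?_, ?_⟩
  · ext a
    rw [Ideal.mem_comap, Ideal.mem_comap]
    have e : g (Algebra.TensorProduct.includeLeftRingHom a) = iL (algebraMap A P.ResidueField a) := by
      show gA a * gB 1 = _
      rw [map_one, mul_one]; rfl
    rw [e]
    constructor
    · intro hm
      by_contra ha
      have hne : algebraMap A P.ResidueField a ≠ 0 := by
        rwa [Ne, Ideal.algebraMap_residueField_eq_zero]
      exact h𝔪.ne_top (Ideal.eq_top_of_isUnit_mem _ hm ((Ne.isUnit hne).map iL))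
    · intro ha
      rw [(Ideal.algebraMap_residueField_eq_zero).2 ha, map_zero]
      exact 𝔪.zero_mem
  · ext b
    rw [Ideal.mem_comap, Ideal.mem_comap]
    have e : g (Algebra.TensorProduct.includeRight.toRingHom b) =
        iR (algebraMap B Q.ResidueField b) := by
      show gA 1 * gB b = _
      rw [map_one, one_mul]; rfl
    rw [e]
    constructor
    · intro hm
      by_contra hb
      have hne : algebraMap B Q.ResidueField b ≠ 0 := by
        rwa [Ne, Ideal.algebraMap_residueField_eq_zero]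
      exact h𝔪.ne_top (Ideal.eq_top_of_isUnit_mem _ hm ((Ne.isUnit hne).map iR))
    · intro hb
      rw [(Ideal.algebraMap_residueField_eq_zero).2 hb, map_zero]
      exact 𝔪.zero_mem


/-- In a schematic space (with the faithful-flatness hypothesis of the published statement),
pairs at two points above a common point whose primes contract to the same prime are related. -/
theorem pairRel_of (X : RSpace.{u}) (hX : X.IsSchematic)
    (hff : ∀ s a b : X.pt, s ≤ a → s ≤ b → (X.up a ∩ X.up b).Nonempty →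
      Module.FaithfullyFlat (X.sectRing (X.up a ∩ X.up b)) ((q : ↥(X.up a ∩ X.up b)) → X.ring q.1))
    {s x y : X.pt} (hx : s ≤ x) (hy : s ≤ y) (P : PrimeSpectrum (X.ring x))
    (Q : PrimeSpectrum (X.ring y))
    (hPQ : PrimeSpectrum.comap (X.res hx) P = PrimeSpectrum.comap (X.res hy) Q) :
    X.PairRel ⟨x, P⟩ ⟨y, Q⟩ := by
  letI := (X.res hx).toAlgebra
  letI := (X.res hy).toAlgebra
  obtain ⟨Φ, hΦb, hΦ⟩ := pair_tensor_equiv X hX hx hy
  have hPQ' : P.asIdeal.comap (algebraMap (X.ring s) (X.ring x)) =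
      Q.asIdeal.comap (algebraMap (X.ring s) (X.ring y)) :=
    congrArg PrimeSpectrum.asIdeal hPQ
  obtain ⟨M, hM, hMx, hMy⟩ := exists_prime_tensor P.asIdeal Q.asIdeal hPQ'
  let E := RingEquiv.ofBijective Φ hΦb
  let 𝔮 : Ideal (X.sectRing ((Hom.id X).wedge x y)) := M.comap E.symm.toRingHom
  haveI h𝔮p : 𝔮.IsPrime := Ideal.comap_isPrime _ M
  have hρx : ∀ a, X.resSect x _ (fun _ hq => hq.1) a =
      E (Algebra.TensorProduct.includeLeftRingHom a) := by
    intro a
    show _ = Φ (a ⊗ₜ 1)
    rw [hΦ, map_one, mul_one]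
  have hρy : ∀ b, X.resSect y _ (fun _ hq => hq.2) b =
      E (Algebra.TensorProduct.includeRight.toRingHom b) := by
    intro b
    show _ = Φ (1 ⊗ₜ b)
    rw [hΦ, map_one, one_mul]
  have h𝔮x : 𝔮.comap (X.resSect x _ (fun _ hq => hq.1)) = P.asIdeal := by
    ext a
    rw [Ideal.mem_comap, hρx]
    show E.symm (E _) ∈ M ↔ _
    rw [E.symm_apply_apply, ← Ideal.mem_comap, hMx]
  have h𝔮y : 𝔮.comap (X.resSect y _ (fun _ hq => hq.2)) = Q.asIdeal := by
    ext b
    rw [Ideal.mem_comap, hρy]
    show E.symm (E _) ∈ M ↔ _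
    rw [E.symm_apply_apply, ← Ideal.mem_comap, hMy]
  have hne : ((Hom.id X).wedge x y).Nonempty := by
    by_contra hempty
    rw [Set.not_nonempty_iff_eq_empty] at hempty
    apply h𝔮p.ne_top
    rw [Ideal.eq_top_iff_one]
    have h10 : (1 : X.sectRing ((Hom.id X).wedge x y)) = 0 := by
      apply Subtype.ext; funext q
      exact (Set.eq_empty_iff_forall_notMem.1 hempty q.1 q.2).elim
    rw [h10]; exact 𝔮.zero_mem
  haveI hF : Module.FaithfullyFlat (X.sectRing ((Hom.id X).wedge x y))
      ((q : ↥((Hom.id X).wedge x y)) → X.ring q.1) := hff s x y hx hy hne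
  obtain ⟨𝔯, h𝔯⟩ := PrimeSpectrum.comap_surjective_of_faithfullyFlat
    (A := X.sectRing ((Hom.id X).wedge x y))
    (B := (q : ↥((Hom.id X).wedge x y)) → X.ring q.1) ⟨𝔮, h𝔮p⟩
  obtain ⟨z, r, hr⟩ := PrimeSpectrum.exists_comap_evalRingHom_eq 𝔯
  have h𝔯' : 𝔯.asIdeal.comap (algebraMap (X.sectRing ((Hom.id X).wedge x y))
      ((q : ↥((Hom.id X).wedge x y)) → X.ring q.1)) = 𝔮 :=
    congrArg PrimeSpectrum.asIdeal h𝔯
  refine ⟨z.1, z.2.1, z.2.2, r, ?_, ?_⟩
  · apply PrimeSpectrum.ext
    rw [← h𝔮x, ← h𝔯', ← hr]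
    rfl
  · apply PrimeSpectrum.ext
    rw [← h𝔮y, ← h𝔯', ← hr]
    rfl


theorem comap_res_refl (X : RSpace.{u}) (p : X.pt) (h : p ≤ p) (r : PrimeSpectrum (X.ring p)) :
    PrimeSpectrum.comap (X.res h) r = r := by
  apply PrimeSpectrum.ext
  ext a
  show X.res h a ∈ r.asIdeal ↔ a ∈ r.asIdeal
  rw [X.res_self]

theorem comap_res_trans (X : RSpace.{u}) {p q t : X.pt} (h1 : p ≤ q) (h2 : q ≤ t)
    (r : PrimeSpectrum (X.ring t)) :
    PrimeSpectrum.comap (X.res (h1.trans h2)) r =
      PrimeSpectrum.comap (X.res h1) (PrimeSpectrum.comap (X.res h2) r) := by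
  apply PrimeSpectrum.ext
  ext a
  show X.res (h1.trans h2) a ∈ r.asIdeal ↔ X.res h2 (X.res h1 a) ∈ r.asIdeal
  rw [X.res_comp]

theorem pairRel_equivalence (X : RSpace.{u}) (hX : X.IsSchematic)
    (hff : ∀ s a b : X.pt, s ≤ a → s ≤ b → (X.up a ∩ X.up b).Nonempty →
      Module.FaithfullyFlat (X.sectRing (X.up a ∩ X.up b)) ((q : ↥(X.up a ∩ X.up b)) → X.ring q.1)) :
    Equivalence X.PairRel := by
  refine ⟨fun a => ⟨a.1, le_rfl, le_rfl, a.2, comap_res_refl X _ _ _, comap_res_refl X _ _ _⟩,
    fun ⟨z, hx, hy, r, e1, e2⟩ => ⟨z, hy, hx, r, e2, e1⟩, ?_⟩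
  rintro a b c ⟨z₁, h1a, h1b, r₁, e1a, e1b⟩ ⟨z₂, h2b, h2c, r₂, e2b, e2c⟩
  obtain ⟨z₃, h31, h32, r₃, e31, e32⟩ :=
    pairRel_of X hX hff h1b h2b r₁ r₂ (by rw [e1b, e2b])
  refine ⟨z₃, h1a.trans h31, h2c.trans h32, r₃, ?_, ?_⟩
  · rw [comap_res_trans X h1a h31]
    change PrimeSpectrum.comap (X.res h1a) (PrimeSpectrum.comap (X.res h31) r₃) = a.2
    rw [e31, e1a]
  · rw [comap_res_trans X h2c h32]
    change PrimeSpectrum.comap (X.res h2c) (PrimeSpectrum.comap (X.res h32) r₃) = c.2
    rw [e32, e2c]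

theorem schPt_unique_max (X : RSpace.{u}) (hX : X.IsSchematic)
    (hff : ∀ s a b : X.pt, s ≤ a → s ≤ b → (X.up a ∩ X.up b).Nonempty →
      Module.FaithfullyFlat (X.sectRing (X.up a ∩ X.up b)) ((q : ↥(X.up a ∩ X.up b)) → X.ring q.1))
    (c : X.SchPt) :
    ∃! a : X.Pair, Quot.mk X.PairRel a = c ∧ ∀ b : X.Pair, Quot.mk X.PairRel b = c → b.1 ≤ a.1 := by
  have hE := pairRel_equivalence X hX hff
  have hiff : ∀ a b : X.Pair, Quot.mk X.PairRel a = Quot.mk X.PairRel b ↔ X.PairRel a b :=
    fun a b => ⟨fun h => hE.eqvGen_iff.1 (Quot.eqvGen_exact h), Quot.sound⟩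
  -- a pair at a point above `b.1` related to `b`
  have hup : ∀ (b : X.Pair) (z : X.pt) (hz : b.1 ≤ z) (r : PrimeSpectrum (X.ring z)),
      PrimeSpectrum.comap (X.res hz) r = b.2 → X.PairRel ⟨z, r⟩ b :=
    fun b z hz r e => ⟨z, le_rfl, hz, r, comap_res_refl X _ _ _, e⟩
  obtain ⟨a₀, rfl⟩ := Quot.exists_rep c
  let S : Set X.pt := {p | ∃ b : X.Pair, X.PairRel b a₀ ∧ b.1 = p}
  have hSf : S.Finite := Set.toFinite S
  have hSne : S.Nonempty := ⟨a₀.1, a₀, hE.refl a₀, rfl⟩
  obtain ⟨m, hmS, hmax⟩ := hSf.exists_maximal hSne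
  obtain ⟨b₀, hb₀, rfl⟩ := hmS
  have key : ∀ b : X.Pair, X.PairRel b a₀ → b.1 ≤ b₀.1 := by
    intro b hb
    obtain ⟨z, hzb, hzb₀, r, e1, e2⟩ := hE.trans hb (hE.symm hb₀)
    have hzS : z ∈ S := ⟨⟨z, r⟩, hE.trans (hup b₀ z hzb₀ r e2) hb₀, rfl⟩
    have := hmax hzS hzb₀
    exact hzb.trans this
  refine ⟨b₀, ⟨(hiff _ _).2 hb₀, fun b hb => key b ((hiff _ _).1 hb)⟩, ?_⟩
  rintro a ⟨ha, hamax⟩
  have hab₀ : X.PairRel a b₀ := (hiff _ _).1 (ha.trans ((hiff _ _).2 hb₀).symm)
  have h1 : a.1 ≤ b₀.1 := key a ((hiff _ _).1 ha)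
  have h2 : b₀.1 ≤ a.1 := hamax b₀ ((hiff _ _).2 hb₀)
  obtain ⟨x, P⟩ := a
  obtain ⟨x', P'⟩ := b₀
  simp only at h1 h2
  obtain rfl : x = x' := le_antisymm h1 h2
  obtain ⟨z, hzx, hzx', r, e1, e2⟩ := hab₀
  have hzle : z ≤ x := hamax ⟨z, r⟩ ((hiff _ _).2 (hE.trans (hup _ z hzx r e1) ((hiff _ _).1 ha)))
  have hzeq : z = x := le_antisymm hzle hzx
  subst hzeq
  rw [comap_res_refl] at e1 e2
  change r = P at e1
  change r = P' at e2
  rw [← e1, ← e2]

end Groth.Agent.Lib.Helper23.SchFinPair
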